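import Cfsg.Agent.H318.RepLarge
import Cfsg.Agent.H113.QS.LiftZ

/-!
# Degrees of central extensions of a group with a large extraspecial subgroup (helper935)

`T` with `Large Q z`, `Irr Q z`, `C_T(z)` perfect and a conjugate of `z` in `Q` other than `z`; `π : A → T` a central
extension. An irreducible character `χ` of `A` which is not constant on the lifts of `z` up to scalars (`χ` not constant
modulo `Z`) has `2 χ(1) ≥ 3 d` with `d ^ 2 = |Q : ⟨z⟩|` (`deg_ge`).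
-/

set_option autoImplicit false
set_option linter.unusedSectionVars false

open Cfsg

namespace Cfsg.Agent.H935.F4

open Subgroup Cfsg.Agent.Characters Cfsg.Agent.Characters.Core
open Cfsg.Agent.H318.RepBound Cfsg.Agent.H318.RepLarge
open Cfsg.Agent.Co2Type.Quad (Large)
open Cfsg.Agent.KFacts.LargeO2 (Irr)
open Cfsg.Agent.H113.QS (Lies exists_lies theta_norm theta_one irr_one_ne)
open scoped commutatorElement ComplexConjugate

universe u v

variable {A : Type u} [Group A]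

/-! ### Irreducible characters of the middle group -/

/-- the extension by zero of a character of a subgroup -/
noncomputable def ez (R : Subgroup A) (ψ : R → ℂ) (g : A) : ℂ := extendByZero R ψ g

theorem ez_mem {R : Subgroup A} (ψ : R → ℂ) {g : A} (hg : g ∈ R) : ez R ψ g = ψ ⟨g, hg⟩ := extendByZero_of_mem R ψ hg

theorem ez_one (R : Subgroup A) (ψ : R → ℂ) : ez R ψ 1 = ψ 1 := ez_mem ψ (one_mem R)

theorem sum_normSq {G : Type u} [Group G] [Fintype G] (ψ : IrrCharacter G) :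
    ∑ y : G, Complex.normSq ((ψ : G → ℂ) y) = Nat.card G := by
  have h := Core.classInner_irr_self ψ.2
  rw [Core.classInner_def] at h
  have hn : (Nat.card G : ℂ) ≠ 0 := Core.card_ne_zero_complex
  have h1 := congrArg (fun z => (Nat.card G : ℂ) * z) h
  rw [← mul_assoc, mul_inv_cancel₀ hn, one_mul, mul_one] at h1
  have h2 : ((∑ y : G, Complex.normSq ((ψ : G → ℂ) y) : ℝ) : ℂ) = ((Nat.card G : ℝ) : ℂ) := by
    push_cast
    rw [← h1]
    refine Finset.sum_congr rfl (fun y _ => ?_)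
    rw [Complex.mul_conj]
  exact_mod_cast h2

section mid

variable [Finite A] {C R P : Subgroup A} (h : Heis C R P)

include h in
theorem center_le : C.subgroupOf R ≤ center R := by
  intro c hc
  rw [mem_center_iff]
  intro g
  apply Subtype.ext
  exact (h.cen _ (mem_subgroupOf.1 hc) _ (h.RP g.2)).symm

include h in
theorem ez_mul (ψ : IrrCharacter R) {g c : A} (hg : g ∈ R) (hc : c ∈ C) :
    ez R (ψ : R → ℂ) (g * c) * ez R (ψ : R → ℂ) 1 = ez R (ψ : R → ℂ) g * ez R (ψ : R → ℂ) c := by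
  obtain ⟨θ, hθ⟩ := exists_lies (center_le h) ψ
  have hcR := h.CR hc
  let c' : C.subgroupOf R := ⟨⟨c, hcR⟩, mem_subgroupOf.2 hc⟩
  rw [ez_mem _ (mul_mem hg hcR), ez_mem _ hg, ez_mem _ hcR, ez_one]
  have h1 := hθ ⟨g, hg⟩ c'
  have h2 := hθ 1 c'
  rw [_root_.one_mul] at h2
  have h3 : (⟨g * c, mul_mem hg hcR⟩ : R) = ⟨g, hg⟩ * ⟨c, hcR⟩ := rfl
  have h4 : ((c' : R)) = ⟨c, hcR⟩ := rfl
  rw [h4] at h1 h2
  rw [h3, h1, h2]
  ring

theorem ez_conj (ψ : IrrCharacter R) {g y : A} (hg : g ∈ R) (hy : y ∈ R) :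
    ez R (ψ : R → ℂ) (y * g * y⁻¹) = ez R (ψ : R → ℂ) g := by
  rw [ez_mem _ (mul_mem (mul_mem hy hg) (inv_mem hy)), ez_mem _ hg]
  exact isIrr_isClassFunction ψ.2 ⟨g, hg⟩ ⟨y, hy⟩

theorem ez_one_ne (ψ : IrrCharacter R) : ez R (ψ : R → ℂ) 1 ≠ 0 := by
  rw [ez_one]; exact irr_one_ne ψ

include h in
theorem ez_comm (ψ : IrrCharacter R) {g y : A} (hg : g ∈ R) (hy : y ∈ R)
    (hne : ez R (ψ : R → ℂ) ⁅g, y⁆ ≠ ez R (ψ : R → ℂ) 1) : ez R (ψ : R → ℂ) g = 0 := by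
  have hc := h.comm g hg y hy
  have h1 : g * ⁅g, y⁆⁻¹ = y * g * y⁻¹ := by
    rw [← h.cen _ (inv_mem hc) g (h.RP hg), commutatorElement_def]
    group
  have h4 := ez_mul h ψ hg (inv_mem hc)
  rw [h1, ez_conj ψ hg hy] at h4
  have h5 := ez_mul h ψ (h.CR hc) (inv_mem hc)
  rw [mul_inv_cancel] at h5
  by_contra h0
  have h6 : ez R (ψ : R → ℂ) 1 = ez R (ψ : R → ℂ) ⁅g, y⁆⁻¹ := mul_left_cancel₀ h0 h4
  rw [← h6] at h5
  exact hne (mul_right_cancel₀ (ez_one_ne ψ) h5.symm)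

/-- the radical of the form of a character -/
def rad (ψ : IrrCharacter R) : Subgroup A where
  carrier := {g | g ∈ R ∧ ∀ y ∈ R, ez R (ψ : R → ℂ) ⁅g, y⁆ = ez R (ψ : R → ℂ) 1}
  one_mem' := ⟨one_mem _, fun y _ => by rw [commutatorElement_one_left]⟩
  mul_mem' := by
    rintro a b ⟨ha, ha'⟩ ⟨hb, hb'⟩
    refine ⟨mul_mem ha hb, fun y hy => ?_⟩
    have hcb := h.comm b hb y hy
    have hca := h.comm a ha y hy
    have h1 : ⁅a * b, y⁆ = ⁅a, y⁆ * ⁅b, y⁆ := by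
      have h2 := h.cen _ hcb a (h.RP ha)
      calc ⁅a * b, y⁆ = a * ⁅b, y⁆ * (y * a⁻¹ * y⁻¹) := by simp only [commutatorElement_def]; group
        _ = ⁅b, y⁆ * a * (y * a⁻¹ * y⁻¹) := by rw [h2]
        _ = ⁅b, y⁆ * ⁅a, y⁆ := by simp only [commutatorElement_def]; group
        _ = ⁅a, y⁆ * ⁅b, y⁆ := h.cen _ hcb _ (h.RP (h.CR hca))
    have h3 := ez_mul h ψ (h.CR hca) hcb
    rw [ha' y hy, hb' y hy] at h3
    rw [h1]
    exact mul_right_cancel₀ (ez_one_ne ψ) h3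
  inv_mem' := by
    rintro a ⟨ha, ha'⟩
    refine ⟨inv_mem ha, fun y hy => ?_⟩
    have hca := h.comm a ha y hy
    have h1 : ⁅a⁻¹, y⁆ = ⁅a, y⁆⁻¹ := by
      have h3 : ⁅a⁻¹, y⁆ = a⁻¹ * (⁅a, y⁆⁻¹ * a) := by simp only [commutatorElement_def]; group
      rw [h3, h.cen _ (inv_mem hca) a (h.RP ha), inv_mul_cancel_left]
    have h3 := ez_mul h ψ (h.CR hca) (inv_mem hca)
    rw [mul_inv_cancel, ha' y hy] at h3
    rw [h1]
    exact (mul_left_cancel₀ (ez_one_ne ψ) h3).symm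

include h in
theorem rad_cases (ψ : IrrCharacter R) : rad h ψ = C ∨ rad h ψ = R := by
  refine h.irr _ ?_ (fun g hg => hg.1) ?_
  · intro c hc
    refine ⟨h.CR hc, fun y hy => ?_⟩
    rw [commutatorElement_eq_one_iff_mul_comm.2 (h.cen c hc y (h.RP hy))]
  · rintro p hp s ⟨hs, hs'⟩
    refine ⟨h.norm p hp s hs, fun y hy => ?_⟩
    have hy' : p⁻¹ * y * p ∈ R := by
      have := h.norm p⁻¹ (inv_mem hp) y hy
      rwa [inv_inv] at this
    have h1 : ⁅p * s * p⁻¹, y⁆ = p * ⁅s, p⁻¹ * y * p⁆ * p⁻¹ := by simp only [commutatorElement_def]; group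
    rw [h1, ← h.cen _ (h.comm s hs _ hy') p hp, mul_inv_cancel_right]
    exact hs' _ hy'

include h in
/-- a character with a nontrivial value at a commutator vanishes off `C` -/
theorem ez_eq_zero (ψ : IrrCharacter R) {x y : A} (hx : x ∈ R) (hy : y ∈ R)
    (hne : ez R (ψ : R → ℂ) ⁅x, y⁆ ≠ ez R (ψ : R → ℂ) 1) {g : A} (hg : g ∈ R) (hgC : g ∉ C) :
    ez R (ψ : R → ℂ) g = 0 := by
  rcases rad_cases h ψ with h1 | h1
  · have h2 : g ∉ rad h ψ := by rw [h1]; exact hgC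
    have h3 : ∃ y ∈ R, ez R (ψ : R → ℂ) ⁅g, y⁆ ≠ ez R (ψ : R → ℂ) 1 := by
      by_contra hcon
      push Not at hcon
      exact h2 ⟨hg, hcon⟩
    obtain ⟨y, hy, hne⟩ := h3
    exact ez_comm h ψ hg hy hne
  · exfalso
    have h2 : x ∈ rad h ψ := by rw [h1]; exact hx
    exact hne (h2.2 y hy)

include h in
/-- its degree -/
theorem deg_sq (ψ : IrrCharacter R) {x y : A} (hx : x ∈ R) (hy : y ∈ R)
    (hne : ez R (ψ : R → ℂ) ⁅x, y⁆ ≠ ez R (ψ : R → ℂ) 1) :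
    charDegree (ψ : R → ℂ) ^ 2 * Nat.card C = Nat.card R := by
  classical
  have := Fintype.ofFinite R
  have := Fintype.ofFinite A
  have h1 := sum_normSq ψ
  have hCc := center_le h
  obtain ⟨θ, hθ⟩ := exists_lies hCc ψ
  have hnorm : ∀ c : C.subgroupOf R, Complex.normSq ((ψ : R → ℂ) c) = (charDegree (ψ : R → ℂ) : ℝ) ^ 2 := by
    intro c
    have h2 := hθ 1 c
    rw [_root_.one_mul] at h2
    rw [h2, Complex.normSq_eq_norm_sq, norm_mul, theta_norm hCc θ c, mul_one, Cfsg.Agent.H65.Ore.cast_deg ψ,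
      Complex.norm_natCast]
  have h3 : ∑ g : R, Complex.normSq ((ψ : R → ℂ) g) =
      ∑ g ∈ Finset.univ.filter (fun g : R => g ∈ C.subgroupOf R), (charDegree (ψ : R → ℂ) : ℝ) ^ 2 := by
    rw [Finset.sum_filter]
    refine Finset.sum_congr rfl fun g _ => ?_
    split_ifs with hg
    · exact hnorm ⟨g, hg⟩
    · have h4 := ez_eq_zero h ψ hx hy hne g.2 (fun h5 => hg (mem_subgroupOf.2 h5))
      rw [ez_mem _ g.2] at h4
      rw [h4, map_zero]
  rw [h3, Finset.sum_const, nsmul_eq_mul] at h1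
  have h5 : (Finset.univ.filter (fun g : R => g ∈ C.subgroupOf R)).card = Nat.card C := by
    rw [← Nat.card_congr (subgroupOfEquivOfLe h.CR).toEquiv, Nat.card_eq_fintype_card, Fintype.card_subtype]
  rw [h5] at h1
  have h6 : ((charDegree (ψ : R → ℂ) ^ 2 * Nat.card C : ℕ) : ℝ) = ((Nat.card R : ℕ) : ℝ) := by
    push_cast
    linarith
  exact_mod_cast h6

end mid

/-! ### The bound -/

theorem norm_irr_le_deg {G : Type u} [Group G] [Finite G] (ψ : IrrCharacter G) (g : G) :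
    ‖(ψ : G → ℂ) g‖ ≤ (charDegree (ψ : G → ℂ) : ℝ) := by
  have h1 : ‖(ψ : G → ℂ) g‖ ≤ ‖(ψ : G → ℂ) 1‖ := by
    obtain ⟨n, ρ, hρ, h⟩ := ψ.2
    have h2 := Cfsg.Agent.Characters.Values.norm_character_le ρ g
    rw [← h, Representation.char_one, Complex.norm_natCast]
    exact h2
  rwa [Cfsg.Agent.H65.Ore.cast_deg ψ, Complex.norm_natCast] at h1

theorem bound [Finite A] {C R P : Subgroup A} (h : Heis C R P) (χ : IrrCharacter A) {x y : A} (hx : x ∈ R) (hy : y ∈ R)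
    (hsq : ⁅x, y⁆ * ⁅x, y⁆ = 1) (hne : (χ : A → ℂ) ⁅x, y⁆ ≠ (χ : A → ℂ) 1) {q : A} (hq : q ∈ R) (hqC : q ∉ C)
    (hval : ‖(χ : A → ℂ) q‖ = ‖(χ : A → ℂ) ⁅x, y⁆‖) :
    ∃ d : ℕ, d ^ 2 * Nat.card C = Nat.card R ∧ 3 * d ≤ 2 * charDegree (χ : A → ℂ) := by
  classical
  have hfin : Finite (IrrCharacter R) := finite_irr
  have := Fintype.ofFinite (IrrCharacter R)
  have := Fintype.ofFinite A
  set a := ⁅x, y⁆ with ha
  have haC : a ∈ C := h.comm x hx y hy
  have haR : a ∈ R := h.CR haC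
  have hres : IsCharacter R (fun g : R => (χ : A → ℂ) g) := Clifford.isCharacter_restrict R (isIrr_isCharacter χ.2)
  obtain ⟨m, hm⟩ := exists_nat_comb hres
  have hval' : ∀ g ∈ R, (χ : A → ℂ) g = ∑ ψ : IrrCharacter R, (m ψ : ℂ) * ez R (ψ : R → ℂ) g := by
    intro g hg
    have h1 := congrFun hm ⟨g, hg⟩
    rw [Finset.sum_apply] at h1
    refine h1.trans (Finset.sum_congr rfl fun ψ _ => ?_)
    rw [Pi.smul_apply, nsmul_eq_mul, ez_mem _ hg]
  -- signs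
  have hsign : ∀ ψ : IrrCharacter R, ez R (ψ : R → ℂ) a = ez R (ψ : R → ℂ) 1 ∨ ez R (ψ : R → ℂ) a = -ez R (ψ : R → ℂ) 1 := by
    intro ψ
    have h1 := ez_mul h ψ haR haC
    rw [hsq] at h1
    have h2 : (ez R (ψ : R → ℂ) a - ez R (ψ : R → ℂ) 1) * (ez R (ψ : R → ℂ) a + ez R (ψ : R → ℂ) 1) = 0 := by
      linear_combination -h1
    rcases mul_eq_zero.1 h2 with h3 | h3
    · exact Or.inl (sub_eq_zero.1 h3)
    · exact Or.inr (eq_neg_of_add_eq_zero_left h3)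
  have hdeg : ∀ ψ : IrrCharacter R, ez R (ψ : R → ℂ) 1 = (charDegree (ψ : R → ℂ) : ℂ) := by
    intro ψ
    rw [ez_one, Cfsg.Agent.H65.Ore.cast_deg ψ]
  let Sp : Finset (IrrCharacter R) := Finset.univ.filter fun ψ => ez R (ψ : R → ℂ) a = ez R (ψ : R → ℂ) 1
  let Np : ℕ := ∑ ψ ∈ Sp, m ψ * charDegree (ψ : R → ℂ)
  let Nm : ℕ := ∑ ψ ∈ Spᶜ, m ψ * charDegree (ψ : R → ℂ)
  have hsplit : ∀ F : IrrCharacter R → ℂ, ∑ ψ : IrrCharacter R, F ψ = ∑ ψ ∈ Sp, F ψ + ∑ ψ ∈ Spᶜ, F ψ :=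
    fun F => (Finset.sum_add_sum_compl Sp F).symm
  have hSm : ∀ ψ ∈ Spᶜ, ez R (ψ : R → ℂ) a = -ez R (ψ : R → ℂ) 1 ∧ ez R (ψ : R → ℂ) a ≠ ez R (ψ : R → ℂ) 1 := by
    intro ψ hψ
    have h1 : ¬ ez R (ψ : R → ℂ) a = ez R (ψ : R → ℂ) 1 := by
      intro h2
      exact (Finset.mem_compl.1 hψ) (Finset.mem_filter.2 ⟨Finset.mem_univ _, h2⟩)
    exact ⟨(hsign ψ).resolve_left h1, h1⟩
  have h1 : (χ : A → ℂ) 1 = ((Np + Nm : ℕ) : ℂ) := by
    rw [hval' 1 (one_mem _), hsplit]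
    push_cast [Np, Nm]
    congr 1 <;> exact Finset.sum_congr rfl fun ψ _ => by rw [hdeg]
  have h2 : (χ : A → ℂ) a = (Np : ℂ) - Nm := by
    rw [hval' a haR, hsplit]
    push_cast [Np, Nm]
    rw [sub_eq_add_neg, ← Finset.sum_neg_distrib]
    congr 1
    · exact Finset.sum_congr rfl fun ψ hψ => by rw [(Finset.mem_filter.1 hψ).2, hdeg]
    · exact Finset.sum_congr rfl fun ψ hψ => by rw [(hSm ψ hψ).1, hdeg]; ring
  have h3 : ‖(χ : A → ℂ) q‖ ≤ Np := by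
    rw [hval' q hq, hsplit, Finset.sum_eq_zero (s := Spᶜ) fun ψ hψ => by
      rw [ez_eq_zero h ψ hx hy (hSm ψ hψ).2 hq hqC, mul_zero], add_zero]
    refine (norm_sum_le _ _).trans ?_
    push_cast [Np]
    refine Finset.sum_le_sum fun ψ _ => ?_
    rw [norm_mul, Complex.norm_natCast]
    refine mul_le_mul_of_nonneg_left ?_ (by positivity)
    rw [ez_mem _ hq]
    exact norm_irr_le_deg ψ _
  rw [hval, h2] at h3
  have h4 : (Nm : ℝ) - Np ≤ Np := by
    have h5 : ‖(Np : ℂ) - Nm‖ = |(Np : ℝ) - Nm| := by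
      rw [← Complex.ofReal_natCast, ← Complex.ofReal_natCast, ← Complex.ofReal_sub, Complex.norm_real, Real.norm_eq_abs]
    rw [h5] at h3
    linarith [neg_abs_le ((Np : ℝ) - Nm)]
  have h5 : Nm ≤ 2 * Np := by
    have : (Nm : ℝ) ≤ ((2 * Np : ℕ) : ℝ) := by push_cast; linarith
    exact_mod_cast this
  have h6 : charDegree (χ : A → ℂ) = Np + Nm := by
    have : (charDegree (χ : A → ℂ) : ℂ) = ((Np + Nm : ℕ) : ℂ) := by
      rw [← Cfsg.Agent.H65.Ore.cast_deg χ, h1]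
    exact_mod_cast this
  have h7 : ∃ ψ ∈ Spᶜ, m ψ ≠ 0 := by
    by_contra hcon
    push Not at hcon
    have h8 : Nm = 0 := Finset.sum_eq_zero fun ψ hψ => by rw [hcon ψ hψ, zero_mul]
    apply hne
    rw [h1, h2, h8]
    simp
  obtain ⟨ψ, hψ, hm0⟩ := h7
  refine ⟨charDegree (ψ : R → ℂ), deg_sq h ψ hx hy (hSm ψ hψ).2, ?_⟩
  have h8 : charDegree (ψ : R → ℂ) ≤ Nm := by
    calc charDegree (ψ : R → ℂ) ≤ m ψ * charDegree (ψ : R → ℂ) := Nat.le_mul_of_pos_left _ (Nat.pos_of_ne_zero hm0)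
      _ ≤ Nm := Finset.single_le_sum (f := fun ψ : IrrCharacter R => m ψ * charDegree (ψ : R → ℂ))
          (fun _ _ => Nat.zero_le _) hψ
  rw [h6]
  omega

/-- **The bound on the degrees.** -/
theorem deg_ge {T : Type v} [Group T] [Finite T] [IsSimpleGroup T] {Q : Subgroup T} {z : T} (hL : Large Q z) (hI : Irr Q z)
    (hP : ⁅centralizer ({z} : Set T), centralizer ({z} : Set T)⁆ = centralizer ({z} : Set T))
    (hf : ∃ k : T, k * z * k⁻¹ ∈ Q ∧ k * z * k⁻¹ ≠ z) [Finite A] {π : A →* T} (hπ : Cfsg.Agent.H51.Mult.PCE π)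
    (χ : IrrCharacter A) (hχ : (χ : A → ℂ) ≠ 1) :
    ∃ d : ℕ, 2 * d ^ 2 = Nat.card Q ∧ 3 * d ≤ 2 * charDegree (χ : A → ℂ) := by
  classical
  obtain ⟨k₀, hk₁, hk₂⟩ := hf
  have hq1 : k₀ * z * k₀⁻¹ ≠ 1 := by
    intro h
    apply hL.z_ne
    have : z = k₀⁻¹ * (k₀ * z * k₀⁻¹) * k₀ := by group
    rw [this, h]
    group
  have h := heis hL hI hP ⟨_, hk₁, hq1, hk₂⟩ hπ.surj hπ.cen
  -- the commutator
  obtain ⟨y₀, hy₀, hxy⟩ : ∃ y ∈ Q, k₀ * z * k₀⁻¹ * y ≠ y * (k₀ * z * k₀⁻¹) := by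
    by_contra hcon
    push Not at hcon
    rcases hL.cent _ hk₁ hcon with h1 | h1
    · exact hq1 h1
    · exact hk₂ h1
  obtain ⟨q, hq⟩ := hπ.surj (k₀ * z * k₀⁻¹)
  obtain ⟨y, rfl⟩ := hπ.surj y₀
  obtain ⟨k, rfl⟩ := hπ.surj k₀
  have hqR : q ∈ Q.comap π := by show π q ∈ Q; rw [hq]; exact hk₁
  have hyR : y ∈ Q.comap π := hy₀
  have haz : π ⁅q, y⁆ = z := by
    have h1 : π ⁅q, y⁆ = 1 ∨ π ⁅q, y⁆ = z := (mem_zpowers_iff hL).1 (h.comm q hqR y hyR)
    rcases h1 with h1 | h1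
    · exfalso
      rw [map_commutatorElement, commutatorElement_eq_one_iff_mul_comm, hq] at h1
      exact hxy h1
    · exact h1
  have hsq : ⁅q, y⁆ * ⁅q, y⁆ = 1 := by
    have hc := h.comm q hqR y hyR
    have h1 : ⁅q * q, y⁆ = ⁅q, y⁆ * ⁅q, y⁆ := by
      calc ⁅q * q, y⁆ = q * ⁅q, y⁆ * (y * q⁻¹ * y⁻¹) := by simp only [commutatorElement_def]; group
        _ = ⁅q, y⁆ * q * (y * q⁻¹ * y⁻¹) := by rw [h.cen _ hc q (h.RP hqR)]
        _ = ⁅q, y⁆ * ⁅q, y⁆ := by simp only [commutatorElement_def]; group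
    rw [← h1]
    have h2 : q * q ∈ (zpowers z).comap π := by
      show π (q * q) ∈ zpowers z
      rw [map_mul, mem_zpowers_iff hL]
      exact hL.sq _ hqR
    exact commutatorElement_eq_one_iff_mul_comm.2 (h.cen _ h2 y (h.RP hyR))
  have hqC : q ∉ (zpowers z).comap π := by
    intro h1
    have h2 : π q = 1 ∨ π q = z := (mem_zpowers_iff hL).1 h1
    rw [hq] at h2
    rcases h2 with h2 | h2
    · exact hq1 h2
    · exact hk₂ h2
  -- the value
  have hval : ‖(χ : A → ℂ) q‖ = ‖(χ : A → ℂ) ⁅q, y⁆‖ := by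
    have := Fintype.ofFinite A
    have h1 : (χ : A → ℂ) q = (χ : A → ℂ) (k⁻¹ * q * k⁻¹⁻¹) := (isIrr_isClassFunction χ.2 q k⁻¹).symm
    have h2 : ⁅q, y⁆⁻¹ * (k⁻¹ * q * k⁻¹⁻¹) ∈ π.ker := by
      rw [inv_inv, MonoidHom.mem_ker, map_mul, map_mul, map_mul, map_inv, map_inv, hq, haz]
      group
    obtain ⟨w, hw, hw'⟩ := CharDeep.DegreeBound.exists_omega χ.2 (hπ.cen h2)
    have h3 := hw' ⁅q, y⁆
    rw [mul_inv_cancel_left] at h3
    rw [h1, h3, norm_mul, hw, one_mul]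
  -- nontriviality
  have hne : (χ : A → ℂ) ⁅q, y⁆ ≠ (χ : A → ℂ) 1 := by
    intro h1
    apply hχ
    have hmem : ⁅q, y⁆ ∈ H686.CharKit.chKer χ := H686.CharKit.mem_chKer.2 h1
    have hnorm : (H686.CharKit.chKer χ).Normal := inferInstance
    have hm : ((H686.CharKit.chKer χ).map π).Normal := hnorm.map π hπ.surj
    rcases hm.eq_bot_or_eq_top with h2 | h2
    · exfalso
      have h3 : π ⁅q, y⁆ ∈ (H686.CharKit.chKer χ).map π := mem_map_of_mem π hmem
      rw [h2, mem_bot, haz] at h3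
      exact hL.z_ne h3
    · -- `A = ker χ * Z`
      have h3 : ∀ g : A, ∃ s ∈ H686.CharKit.chKer χ, ∃ ζ ∈ center A, g = s * ζ := by
        intro g
        have h4 : π g ∈ (H686.CharKit.chKer χ).map π := by rw [h2]; exact mem_top _
        obtain ⟨s, hs, hs'⟩ := h4
        refine ⟨s, hs, s⁻¹ * g, hπ.cen ?_, by group⟩
        rw [MonoidHom.mem_ker, map_mul, map_inv, hs', inv_mul_cancel]
      have h5 : (⊤ : Subgroup A) ≤ H686.CharKit.chKer χ := by
        rw [← hπ.perf, commutator_def, commutator_le]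
        rintro a - b -
        obtain ⟨s, hs, ζ, hζ, rfl⟩ := h3 a
        obtain ⟨t, ht, η, hη, rfl⟩ := h3 b
        have e : ⁅s * ζ, t * η⁆ = ⁅s, t⁆ := by
          have z1 : ∀ g, g * ζ = ζ * g := mem_center_iff.1 hζ
          have z2 : ∀ g, g * η = η * g := mem_center_iff.1 hη
          calc ⁅s * ζ, t * η⁆ = s * (ζ * (t * η)) * (ζ⁻¹ * s⁻¹) * (η⁻¹ * t⁻¹) := by
                simp only [commutatorElement_def]; group
            _ = s * ((t * η) * ζ) * (ζ⁻¹ * s⁻¹) * (η⁻¹ * t⁻¹) := by rw [z1 (t * η)]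
            _ = s * t * (η * s⁻¹) * (η⁻¹ * t⁻¹) := by group
            _ = s * t * (s⁻¹ * η) * (η⁻¹ * t⁻¹) := by rw [z2 s⁻¹]
            _ = ⁅s, t⁆ := by simp only [commutatorElement_def]; group
        rw [e]
        simp only [commutatorElement_def]
        exact mul_mem (mul_mem (mul_mem hs ht) (inv_mem hs)) (inv_mem ht)
      have h6 : ∀ g : A, (χ : A → ℂ) g = (χ : A → ℂ) 1 := fun g => H686.CharKit.mem_chKer.1 (h5 (mem_top g))
      funext g
      have h7 : charDegree (χ : A → ℂ) = 1 := by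
        have := Fintype.ofFinite A
        have h8 := sum_normSq χ
        simp only [h6, Complex.normSq_eq_norm_sq] at h8
        rw [Finset.sum_const, Finset.card_univ, nsmul_eq_mul, ← Nat.card_eq_fintype_card, Cfsg.Agent.H65.Ore.cast_deg χ,
          Complex.norm_natCast] at h8
        have h9 : (Nat.card A : ℝ) ≠ 0 := by exact_mod_cast Nat.card_pos.ne'
        have h10 : ((charDegree (χ : A → ℂ) : ℝ)) ^ 2 = 1 := mul_left_cancel₀ h9 (by rw [h8, mul_one])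
        have h11 : charDegree (χ : A → ℂ) ^ 2 = 1 := by exact_mod_cast h10
        nlinarith [h11, Nat.zero_le (charDegree (χ : A → ℂ))]
      rw [h6 g, Cfsg.Agent.H65.Ore.cast_deg χ, h7, Pi.one_apply, Nat.cast_one]
  obtain ⟨d, hd, hd'⟩ := bound h χ hqR hyR hsq hne hqR hqC hval
  refine ⟨d, ?_, hd'⟩
  have e0 : ∀ H : Subgroup T, Nat.card (H.comap π) = Nat.card π.ker * Nat.card H := by
    intro H
    have h1 : (π.ker.subgroupOf (H.comap π)).index = Nat.card H := by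
      have h2 := relIndex_ker (f := π) (H.comap π)
      rw [map_comap_eq_self_of_surjective hπ.surj] at h2
      exact h2
    rw [← h1, ← card_mul_index (π.ker.subgroupOf (H.comap π)),
      Nat.card_congr (subgroupOfEquivOfLe (ker_le_comap π H)).toEquiv]
  have e1 : Nat.card ((zpowers z).comap π) = Nat.card π.ker * 2 := by
    rw [e0, Nat.card_zpowers, orderOf_eq_prime (by rw [sq]; exact hL.z_sq) hL.z_ne]
  have e2 : Nat.card (Q.comap π) = Nat.card π.ker * Nat.card Q := e0 Q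
  rw [e1, e2] at hd
  have h0 : 0 < Nat.card π.ker := Nat.card_pos
  apply Nat.eq_of_mul_eq_mul_left h0
  rw [← hd]
  ring

end Cfsg.Agent.H935.F4
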